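import Cfsg.Agent.Lib.PGroups.ExtraRank
import Cfsg.Agent.Lib.F2Quad.Types

/-!
# Constructing extraspecial 2-groups from bilinear forms over `ZMod 2`

For a bilinear form `β` on `V`, the set `V × ZMod 2` with `(v,a)(w,b) = (v+w, a+b+β v w)`.
-/

set_option autoImplicit false
set_option linter.unusedSectionVars false
set_option linter.unusedVariables false

namespace Cfsg.Agent.Lib.PGroups.ExtraConstruct

open Subgroup Cfsg.Agent.Lib.PGroups.Basic Cfsg.Agent.Lib.PGroups.ClassTwo
  Cfsg.Agent.Lib.PGroups.Special Cfsg.Agent.Lib.PGroups.ExtraGauss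
  Cfsg.Agent.Lib.PGroups.ExtraIso Cfsg.Agent.Lib.PGroups.ExtraRank
open Cfsg.Agent.Lib.F2Quad.Basic Cfsg.Agent.Lib.F2Quad.Plus Cfsg.Agent.Lib.F2Quad.Types
open scoped commutatorElement

variable {V : Type} [AddCommGroup V] [Module (ZMod 2) V]

/-- The central extension of `V` by `ZMod 2` defined by a bilinear form. -/
@[ext] structure CE (β : LinearMap.BilinForm (ZMod 2) V) where
  v : V
  a : ZMod 2

variable {β : LinearMap.BilinForm (ZMod 2) V}

namespace CE

instance : Mul (CE β) := ⟨fun x y => ⟨x.v + y.v, x.a + y.a + β x.v y.v⟩⟩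
instance : One (CE β) := ⟨⟨0, 0⟩⟩
instance : Inv (CE β) := ⟨fun x => ⟨-x.v, -x.a + β x.v x.v⟩⟩

@[simp] theorem mul_v (x y : CE β) : (x * y).v = x.v + y.v := rfl
@[simp] theorem mul_a (x y : CE β) : (x * y).a = x.a + y.a + β x.v y.v := rfl
@[simp] theorem one_v : (1 : CE β).v = 0 := rfl
@[simp] theorem one_a : (1 : CE β).a = 0 := rfl
@[simp] theorem inv_v (x : CE β) : (x⁻¹).v = -x.v := rfl
@[simp] theorem inv_a (x : CE β) : (x⁻¹).a = -x.a + β x.v x.v := rfl

instance : Group (CE β) :=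
  Group.ofLeftAxioms
    (fun x y z => by
      ext
      · simp [add_assoc]
      · simp only [mul_a, mul_v, map_add, LinearMap.add_apply]
        ring)
    (fun x => by
      ext
      · simp
      · simp)
    (fun x => by
      ext
      · simp
      · simp only [CE.mul_a, CE.inv_a, CE.inv_v, map_neg, LinearMap.neg_apply, CE.one_a]
        ring)

end CE

theorem v_add_self (x : V) : x + x = 0 := by
  have : (2 : ZMod 2) = 0 := rfl
  rw [← two_smul (ZMod 2) x, this, zero_smul]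

theorem CE.sq_eq (x : CE β) : x ^ 2 = ⟨0, β x.v x.v⟩ := by
  rw [sq]
  ext
  · simp [v_add_self]
  · simp [zmod2_add_self]

theorem CE.mul_eq (x y : CE β) : x * y = ⟨0, β x.v y.v + β y.v x.v⟩ * (y * x) := by
  ext
  · simp [add_comm]
  · simp only [CE.mul_a, CE.mul_v, map_zero, LinearMap.zero_apply, add_zero, zero_add]
    have := zmod2_add_self (β y.v x.v)
    linear_combination -this

theorem CE.comm_eq (x y : CE β) : ⁅x, y⁆ = ⟨0, β x.v y.v + β y.v x.v⟩ := by
  rw [commutatorElement_def, CE.mul_eq x y]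
  group

theorem CE.mk_zero_mul (a : ZMod 2) (y : CE β) : (⟨0, a⟩ : CE β) * y = y * ⟨0, a⟩ := by
  ext
  · simp
  · simp [add_comm]

theorem CE.mem_center_of_v (x : CE β) (hx : x.v = 0) : x ∈ center (CE β) := by
  rw [mem_center_iff]
  intro g
  have : x = ⟨0, x.a⟩ := by
    ext
    · exact hx
    · rfl
  rw [this, CE.mk_zero_mul]

theorem CE.v_of_mem_center {f : LinearMap.BilinForm (ZMod 2) V} (hf : ∀ u w, f u w = β u w + β w u)
    (hnd : f.Nondegenerate) (x : CE β) (hx : x ∈ center (CE β)) : x.v = 0 := by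
  apply hnd.1
  intro w
  rw [mem_center_iff] at hx
  have h1 := hx (⟨w, 0⟩ : CE β)
  have h2 := congrArg CE.a h1
  simp only [CE.mul_a, zero_add, add_zero] at h2
  rw [hf]
  have h3 := zmod2_add_self (β x.v w)
  rcases zmod2_cases (β x.v w) with h4 | h4 <;> rcases zmod2_cases (β w x.v) with h5 | h5 <;>
    simp_all

/-- The equivalence with the product. -/
def CE.equivProd : CE β ≃ V × ZMod 2 where
  toFun x := (x.v, x.a)
  invFun p := ⟨p.1, p.2⟩
  left_inv _ := rfl
  right_inv _ := rfl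

theorem CE.card_eq [Finite V] : Nat.card (CE β) = Nat.card V * 2 := by
  rw [Nat.card_congr CE.equivProd, Nat.card_prod, Nat.card_zmod]

theorem CE.card_center {f : LinearMap.BilinForm (ZMod 2) V} (hf : ∀ u w, f u w = β u w + β w u)
    (hnd : f.Nondegenerate) : Nat.card (center (CE β)) = 2 := by
  let e : center (CE β) ≃ ZMod 2 :=
    { toFun := fun x => (x : CE β).a
      invFun := fun a => ⟨⟨0, a⟩, CE.mem_center_of_v _ rfl⟩
      left_inv := fun x => by
        apply Subtype.ext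
        ext
        · exact (CE.v_of_mem_center hf hnd _ x.2).symm
        · rfl
      right_inv := fun a => rfl }
  rw [Nat.card_congr e, Nat.card_zmod]

theorem CE.extraLike [Finite V] {f : LinearMap.BilinForm (ZMod 2) V}
    (hf : ∀ u w, f u w = β u w + β w u) (hnd : f.Nondegenerate) {k : ℕ} (hV : Nat.card V = 2 ^ k) :
    ExtraLike 2 (CE β) := by
  refine ⟨?_, CE.card_center hf hnd, ?_, ?_⟩
  · have : Nat.card (CE β) = 2 ^ (k + 1) := by rw [CE.card_eq, hV, pow_succ]
    exact IsPGroup.of_card this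
  · intro x y
    rw [CE.comm_eq]
    exact CE.mem_center_of_v _ rfl
  · intro x
    rw [CE.sq_eq]
    exact CE.mem_center_of_v _ rfl

theorem CE.not_comm [Nontrivial V] {f : LinearMap.BilinForm (ZMod 2) V}
    (hf : ∀ u w, f u w = β u w + β w u) (hnd : f.Nondegenerate) : ¬ IsMulCommutative (CE β) := by
  intro hc
  obtain ⟨v, hv⟩ := exists_ne (0 : V)
  have h1 : (⟨v, 0⟩ : CE β) ∈ center (CE β) := by
    rw [mem_center_iff]
    intro g
    exact hc.is_comm.comm g _
  exact hv (CE.v_of_mem_center hf hnd _ h1)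

/-- The number of elements with trivial square. -/
theorem CE.card_sq [Finite V] :
    Nat.card {x : CE β // x ^ 2 = 1} = Nat.card {v : V // β v v = 0} * 2 := by
  let e : {x : CE β // x ^ 2 = 1} ≃ {v : V // β v v = 0} × ZMod 2 :=
    { toFun := fun x => (⟨(x : CE β).v, by
          have h1 := congrArg CE.a x.2
          rw [CE.sq_eq] at h1
          exact h1⟩, (x : CE β).a)
      invFun := fun p => ⟨⟨p.1, p.2⟩, by
          rw [CE.sq_eq]
          ext
          · rfl
          · exact p.1.2⟩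
      left_inv := fun x => rfl
      right_inv := fun p => rfl }
  rw [Nat.card_congr e, Nat.card_prod, Nat.card_zmod]

/-- The standard form. -/
noncomputable def beta0 (m : ℕ) : LinearMap.BilinForm (ZMod 2) (Vm m) :=
  LinearMap.mk₂ (ZMod 2) (fun u v => ∑ i, u (.inl i) * v (.inr i))
    (fun a b c => by simp [add_mul, Finset.sum_add_distrib])
    (fun c a b => by simp [mul_assoc, Finset.mul_sum])
    (fun a b c => by simp [mul_add, Finset.sum_add_distrib])
    (fun c a b => by simp [mul_left_comm, Finset.mul_sum])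

theorem beta0_apply (m : ℕ) (u v : Vm m) : beta0 m u v = ∑ i, u (.inl i) * v (.inr i) := rfl

theorem beta0_self (m : ℕ) (v : Vm m) : beta0 m v v = Cfsg.quadFormPlus m (ZMod 2) v := by
  rw [beta0_apply]
  rfl

theorem fm_eq_beta0 (m : ℕ) (u v : Vm m) : fm m u v = beta0 m u v + beta0 m v u := by
  simp only [fm, Cfsg.Agent.Lib.QuadFn.PlusForm.polarPlus_apply, beta0_apply]
  rw [← Finset.sum_add_distrib]

theorem nontrivial_Vm (k : ℕ) : Nontrivial (Vm (k + 1)) := inferInstance

/-- The plus-type group. -/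
theorem exists_plus (k : ℕ) : ∃ (E : Type) (_ : Group E) (_ : Finite E), Cfsg.IsExtraspecial 2 E ∧
    Nat.card E = 2 ^ (2 * (k + 1) + 1) ∧ ExtraLike 2 E ∧
    Nat.card {x : E // x ^ 2 = 1} = 2 ^ (2 * (k + 1)) + 2 ^ (k + 1) := by
  have hf := fm_eq_beta0 (k + 1)
  have hnd := fm_nd (k + 1)
  have hV := card_V (k + 1)
  have hL : ExtraLike 2 (CE (beta0 (k + 1))) := CE.extraLike hf hnd hV
  refine ⟨CE (beta0 (k + 1)), inferInstance, Finite.of_equiv _ CE.equivProd.symm,
    ?_, ?_, hL, ?_⟩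
  · haveI : Finite (CE (beta0 (k + 1))) := Finite.of_equiv _ CE.equivProd.symm
    exact hL.isExtraspecial (CE.not_comm hf hnd)
  · rw [CE.card_eq, hV, pow_succ]
  · rw [CE.card_sq]
    simp only [beta0_self]
    rw [card_zero]
    ring

/-- The correction form. -/
noncomputable def betaM (k : ℕ) : LinearMap.BilinForm (ZMod 2) (Vm (k + 1)) :=
  beta0 (k + 1) + LinearMap.BilinForm.linMulLin ((fm (k + 1)).flip (w0 k)) ((fm (k + 1)).flip (w0 k))

theorem betaM_apply (k : ℕ) (u v : Vm (k + 1)) :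
    betaM k u v = beta0 (k + 1) u v + fm (k + 1) u (w0 k) * fm (k + 1) v (w0 k) := rfl

theorem fm_eq_betaM (k : ℕ) (u v : Vm (k + 1)) : fm (k + 1) u v = betaM k u v + betaM k v u := by
  rw [betaM_apply, betaM_apply, fm_eq_beta0]
  have := zmod2_add_self (fm (k + 1) u (w0 k) * fm (k + 1) v (w0 k))
  linear_combination -this

theorem betaM_self (k : ℕ) (v : Vm (k + 1)) :
    betaM k v v = Cfsg.quadFormPlus (k + 1) (ZMod 2) v + fm (k + 1) v (w0 k) := by
  rw [betaM_apply, beta0_self, zmod2_sq]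

theorem gauss_q' (k : ℕ) :
    gauss (fun v => Cfsg.quadFormPlus (k + 1) (ZMod 2) v + fm (k + 1) v (w0 k)) = - 2 ^ (k + 1) := by
  rw [gauss_translate (polarizes_plus (k + 1)), plus_w0, chi_one, gauss_plus]
  ring

theorem card_q' (k : ℕ) :
    Nat.card {v : Vm (k + 1) // Cfsg.quadFormPlus (k + 1) (ZMod 2) v + fm (k + 1) v (w0 k) = 0} * 2 + 2 ^ (k + 1)
      = 2 ^ (2 * (k + 1)) := by
  classical
  have h1 := card_zero_add_card_one (fun v : Vm (k + 1) => Cfsg.quadFormPlus (k + 1) (ZMod 2) v + fm (k + 1) v (w0 k))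
  rw [gauss_q'] at h1
  have ha : Nat.card {v : Vm (k + 1) // Cfsg.quadFormPlus (k + 1) (ZMod 2) v + fm (k + 1) v (w0 k) = 0}
      = (Finset.univ.filter (fun v : Vm (k + 1) => Cfsg.quadFormPlus (k + 1) (ZMod 2) v + fm (k + 1) v (w0 k) = 0)).card := by
    rw [Nat.card_eq_fintype_card, Fintype.card_subtype]
  have h2 := Finset.card_filter_add_card_filter_not (s := (Finset.univ : Finset (Vm (k + 1))))
    (fun v => Cfsg.quadFormPlus (k + 1) (ZMod 2) v + fm (k + 1) v (w0 k) = 0)
  rw [Finset.card_univ, ← Nat.card_eq_fintype_card, card_V] at h2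
  rw [ha]
  zify at h1 h2 ⊢
  linarith

/-- The minus-type group. -/
theorem exists_minus (k : ℕ) : ∃ (E : Type) (_ : Group E) (_ : Finite E), Cfsg.IsExtraspecial 2 E ∧
    Nat.card E = 2 ^ (2 * (k + 1) + 1) ∧ ExtraLike 2 E ∧
    Nat.card {x : E // x ^ 2 = 1} + 2 ^ (k + 1) = 2 ^ (2 * (k + 1)) := by
  have hf := fm_eq_betaM k
  have hnd := fm_nd (k + 1)
  have hV := card_V (k + 1)
  have hL : ExtraLike 2 (CE (betaM k)) := CE.extraLike hf hnd hV
  refine ⟨CE (betaM k), inferInstance, Finite.of_equiv _ CE.equivProd.symm,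
    ?_, ?_, hL, ?_⟩
  · haveI : Finite (CE (betaM k)) := Finite.of_equiv _ CE.equivProd.symm
    exact hL.isExtraspecial (CE.not_comm hf hnd)
  · rw [CE.card_eq, hV, pow_succ]
  · rw [CE.card_sq]
    simp only [betaM_self]
    exact card_q' k

/-- The rank as a supremum, plus type. -/
theorem sSup_of_plus {E : Type} [Group E] [Finite E] (h : ExtraLike 2 E) {m : ℕ}
    (hcard : Nat.card E = 2 ^ (2 * m + 1)) (hN : Nat.card {x : E // x ^ 2 = 1} = 2 ^ (2 * m) + 2 ^ m) :
    sSup {k : ℕ | ∃ A : Subgroup E, Cfsg.IsElementaryAbelian 2 A ∧ Nat.card A = 2 ^ k} = m + 1 := by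
  apply IsGreatest.csSup_eq
  constructor
  · obtain ⟨M, -, hMc, hM, hmax⟩ := exists_maximal_ea (⊥ : Subgroup E) inferInstance (by simp)
    exact ⟨M, ⟨hMc, hM⟩, (card_maximal_ea h M hMc hM hmax hcard).1 hN⟩
  · rintro k ⟨A, hA, hk⟩
    have h2 := (prank_of_plus h hcard hN).1 A hA.1 hA.2
    rw [hk] at h2
    exact (Nat.pow_le_pow_iff_right (by norm_num : 1 < 2)).mp h2

/-- The rank as a supremum, minus type. -/
theorem sSup_of_minus {E : Type} [Group E] [Finite E] (h : ExtraLike 2 E) {m : ℕ} (hm : 1 ≤ m)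
    (hcard : Nat.card E = 2 ^ (2 * m + 1)) (hN : Nat.card {x : E // x ^ 2 = 1} + 2 ^ m = 2 ^ (2 * m)) :
    sSup {k : ℕ | ∃ A : Subgroup E, Cfsg.IsElementaryAbelian 2 A ∧ Nat.card A = 2 ^ k} = m := by
  apply IsGreatest.csSup_eq
  constructor
  · obtain ⟨M, -, hMc, hM, hmax⟩ := exists_maximal_ea (⊥ : Subgroup E) inferInstance (by simp)
    exact ⟨M, ⟨hMc, hM⟩, (card_maximal_ea h M hMc hM hmax hcard).2 hN⟩
  · rintro k ⟨A, hA, hk⟩
    have h2 := (prank_of_minus h hm hcard hN).1 A hA.1 hA.2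
    rw [hk] at h2
    exact (Nat.pow_le_pow_iff_right (by norm_num : 1 < 2)).mp h2

end Cfsg.Agent.Lib.PGroups.ExtraConstruct
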