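import Cfsg.Agent.Lib.PGroups.ExtraConstruct
import Cfsg.Prelude.Def_KGroupFacts
import Cfsg.Prelude.Def_Classical

/-!
# The outer automorphism group of an extraspecial 2-group
-/

set_option autoImplicit false
set_option linter.unusedSectionVars false
set_option linter.unusedVariables false
set_option linter.unusedSimpArgs false

namespace Cfsg.Agent.Lib.PGroups.ExtraOut

open Subgroup Cfsg.Agent.Lib.PGroups.ExtraConstruct
open Cfsg.Agent.Lib.F2Quad.Basic Cfsg.Agent.Lib.F2Quad.Plus Cfsg.Agent.Lib.F2Quad.Types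
open scoped commutatorElement Matrix

theorem z2_add_self (a : ZMod 2) : a + a = 0 := by
  revert a; decide

theorem z2_neg (a : ZMod 2) : -a = a := by
  revert a; decide

theorem z2_cases (a : ZMod 2) : a = 0 ∨ a = 1 := by
  revert a; decide

section quad

variable {V : Type} [AddCommGroup V] [Module (ZMod 2) V]

/-- Every alternating bilinear form over the field of two elements is the polar form of a function. -/
theorem exists_quad [Module.Finite (ZMod 2) V] (γ : LinearMap.BilinForm (ZMod 2) V) (halt : ∀ v, γ v v = 0) :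
    ∃ h : V → ZMod 2, ∀ u w, h (u + w) = h u + h w + γ u w := by
  classical
  let b := Module.finBasis (ZMod 2) V
  have hsymm : ∀ u w, γ u w = γ w u := by
    intro u w
    have h1 := halt (u + w)
    simp only [map_add, LinearMap.add_apply, halt, zero_add, add_zero] at h1
    linear_combination h1 - z2_add_self (γ w u)
  -- the strictly upper triangular part
  let c : Fin (Module.finrank (ZMod 2) V) → Fin (Module.finrank (ZMod 2) V) → ZMod 2 :=
    fun i j => if i < j then γ (b i) (b j) else 0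
  have hc : ∀ i j, c i j + c j i = γ (b i) (b j) := by
    intro i j
    rcases lt_trichotomy i j with h | h | h
    · simp [c, h, not_lt.2 h.le]
    · subst h
      simp [c, halt]
    · simp [c, h, not_lt.2 h.le, hsymm (b i) (b j)]
  refine ⟨fun v => ∑ i, ∑ j, c i j * (b.equivFun v i * b.equivFun v j), fun u w => ?_⟩
  have hexp : γ u w = ∑ i, ∑ j, γ (b i) (b j) * (b.equivFun u i * b.equivFun w j) := by
    conv_lhs => rw [← b.sum_equivFun u, ← b.sum_equivFun w]
    simp only [map_sum, LinearMap.sum_apply, map_smul, LinearMap.smul_apply, smul_eq_mul, Finset.mul_sum]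
    rw [Finset.sum_comm]
    refine Finset.sum_congr rfl fun i _ => Finset.sum_congr rfl fun j _ => ?_
    ring
  have hswap : ∑ i, ∑ j, c i j * (b.equivFun w i * b.equivFun u j)
      = ∑ i, ∑ j, c j i * (b.equivFun u i * b.equivFun w j) := by
    rw [Finset.sum_comm]
    refine Finset.sum_congr rfl fun i _ => Finset.sum_congr rfl fun j _ => ?_
    ring
  rw [hexp]
  simp only [map_add, Pi.add_apply]
  have e : ∀ i j, c i j * ((b.equivFun u i + b.equivFun w i) * (b.equivFun u j + b.equivFun w j))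
      = c i j * (b.equivFun u i * b.equivFun u j) + c i j * (b.equivFun w i * b.equivFun w j)
        + c i j * (b.equivFun u i * b.equivFun w j) + c i j * (b.equivFun w i * b.equivFun u j) := by
    intro i j; ring
  simp only [e, Finset.sum_add_distrib]
  rw [hswap]
  simp only [← hc, add_mul, Finset.sum_add_distrib]
  ring

end quad

section ce

variable {V : Type} [AddCommGroup V] [Module (ZMod 2) V] {β f : LinearMap.BilinForm (ZMod 2) V}

/-- The section. -/
def emb (β : LinearMap.BilinForm (ZMod 2) V) (v : V) : CE β := ⟨v, 0⟩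
/-- The centre. -/
def zc (β : LinearMap.BilinForm (ZMod 2) V) (a : ZMod 2) : CE β := ⟨0, a⟩

theorem eq_emb_mul (x : CE β) : x = emb β x.v * zc β x.a := by
  ext <;> simp [emb, zc]

theorem emb_mul_emb (u w : V) : emb β u * emb β w = emb β (u + w) * zc β (β u w) := by
  ext <;> simp [emb, zc]

variable (hf : ∀ u w, f u w = β u w + β w u) (hnd : f.Nondegenerate)
include hf hnd

theorem map_zc (α : MulAut (CE β)) (a : ZMod 2) : α (zc β a) = zc β a := by
  have hc : zc β a ∈ center (CE β) := CE.mem_center_of_v _ rfl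
  have hc' : α (zc β a) ∈ center (CE β) := by
    rw [mem_center_iff] at hc ⊢
    intro g
    obtain ⟨g', rfl⟩ := α.surjective g
    rw [← map_mul, ← map_mul, hc g']
  have hv := CE.v_of_mem_center hf hnd _ hc'
  have ha : (α (zc β a)).a = a := by
    have hz : zc β (0 : ZMod 2) = 1 := rfl
    rcases z2_cases a with h0 | h1
    · subst h0
      rw [hz, map_one]; rfl
    · subst h1
      rcases z2_cases (α (zc β 1)).a with h2 | h2
      · have h3 : α (zc β 1) = 1 := by
          ext
          · exact hv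
          · exact h2
        have h4 : zc β (1 : ZMod 2) = 1 := α.injective (by rw [h3, map_one])
        have h5 : (1 : ZMod 2) = 0 := congrArg CE.a h4
        exact absurd h5 (by decide)
      · exact h2
  ext
  · exact hv
  · exact ha

theorem map_v (α : MulAut (CE β)) (x : CE β) : (α x).v = (α (emb β x.v)).v := by
  conv_lhs => rw [eq_emb_mul x, map_mul, map_zc hf hnd]
  simp [zc]

/-- The map on `V` induced by an automorphism. -/
noncomputable def L₀ (hf : ∀ u w, f u w = β u w + β w u) (hnd : f.Nondegenerate) (α : MulAut (CE β)) : V →+ V where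
  toFun v := (α (emb β v)).v
  map_zero' := by
    have : emb β (0 : V) = 1 := rfl
    rw [this, map_one]; rfl
  map_add' u w := by
    have h1 := congrArg (fun x => (α x).v) (emb_mul_emb (β := β) u w)
    simp only [map_mul, CE.mul_v, map_zc hf hnd] at h1
    simp only [zc, add_zero] at h1
    exact h1.symm

/-- The homomorphism to the endomorphisms of `V`. -/
noncomputable def L (hf : ∀ u w, f u w = β u w + β w u) (hnd : f.Nondegenerate) :
    MulAut (CE β) →* Module.End (ZMod 2) V where
  toFun α := (L₀ hf hnd α).toZModLinearMap 2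
  map_one' := by
    ext v
    rfl
  map_mul' α α' := by
    ext v
    show (α (α' (emb β v))).v = (α (emb β (α' (emb β v)).v)).v
    exact map_v hf hnd α _

theorem L_apply (α : MulAut (CE β)) (v : V) : L hf hnd α v = (α (emb β v)).v := rfl

theorem form_L (α : MulAut (CE β)) (v : V) : β (L hf hnd α v) (L hf hnd α v) = β v v := by
  have h1 := CE.sq_eq (emb β v)
  have h2 := CE.sq_eq (α (emb β v))
  rw [← map_pow, h1] at h2
  have h3 : (⟨0, β (emb β v).v (emb β v).v⟩ : CE β) = zc β (β v v) := rfl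
  rw [h3, map_zc hf hnd] at h2
  have h4 := congrArg CE.a h2
  exact h4.symm

theorem L_conj (g : CE β) (v : V) : L hf hnd (MulAut.conj g) v = v := by
  rw [L_apply, MulAut.conj_apply]
  simp [emb]

theorem mem_range_of_L_eq_one [Module.Finite (ZMod 2) V] (α : MulAut (CE β)) (h : L hf hnd α = 1) :
    α ∈ (MulAut.conj : CE β →* MulAut (CE β)).range := by
  have hv : ∀ v, (α (emb β v)).v = v := fun v => by
    have := congrArg (fun F : Module.End (ZMod 2) V => F v) h
    exact this
  -- the character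
  let c₀ : V →+ ZMod 2 :=
    { toFun := fun v => (α (emb β v)).a
      map_zero' := by
        have : emb β (0 : V) = 1 := rfl
        rw [this, map_one]; rfl
      map_add' := fun u w => by
        have h1 := congrArg (fun x => (α x).a) (emb_mul_emb (β := β) u w)
        simp only [map_mul, CE.mul_a, map_zc hf hnd, hv] at h1
        simp only [zc, CE.mul_a] at h1
        simp only [emb] at h1
        have h2 : (α (emb β (u + w))).v = u + w := hv _
        simp only [emb] at h2
        simp only [h2, map_zero, map_add, LinearMap.zero_apply, LinearMap.add_apply] at h1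
        simp only [map_zero, add_zero] at h1
        have h3 : (α ⟨u + w, 0⟩).a = (α ⟨u, 0⟩).a + (α ⟨w, 0⟩).a := by
          have h4 := z2_add_self (β u w)
          linear_combination -h1 
        exact h3 }
  let c : V →ₗ[ZMod 2] ZMod 2 := c₀.toZModLinearMap 2
  obtain ⟨w, hw⟩ : ∃ w, ∀ v, f w v = c v := by
    refine ⟨(LinearMap.BilinForm.toDual f hnd).symm c, fun v => ?_⟩
    rw [← LinearMap.BilinForm.toDual_def hnd, LinearEquiv.apply_symm_apply]
  refine ⟨emb β w, ?_⟩
  ext x
  · rw [MulAut.conj_apply]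
    have h1 : (α x).v = x.v := by rw [map_v hf hnd, hv]
    rw [h1]
    simp [emb]
  · rw [MulAut.conj_apply]
    conv_rhs => rw [eq_emb_mul x, map_mul, map_zc hf hnd]
    have hc : c x.v = (α (emb β x.v)).a := rfl
    have h2 := hw x.v
    rw [hc, hf] at h2
    simp only [emb, zc, CE.mul_a, CE.mul_v, CE.inv_a, CE.inv_v, map_zero, LinearMap.zero_apply, add_zero, zero_add, neg_zero]
    simp only [emb] at h2
    simp only [map_neg, LinearMap.neg_apply, map_add, LinearMap.add_apply]
    linear_combination h2 - z2_add_self (β x.v w)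

omit hf hnd in
/-- Lifting an isometry to an automorphism. -/
theorem exists_aut_aux [Module.Finite (ZMod 2) V] (φ : V ≃ₗ[ZMod 2] V) (hφ : ∀ v, β (φ v) (φ v) = β v v) :
    ∃ α : MulAut (CE β), ∀ x : CE β, (α x).v = φ x.v := by
  let γ : LinearMap.BilinForm (ZMod 2) V :=
    (β.compl₁₂ (φ : V →ₗ[ZMod 2] V) (φ : V →ₗ[ZMod 2] V)) + β
  have hγ : ∀ u w, γ u w = β (φ u) (φ w) + β u w := fun u w => rfl
  obtain ⟨h, hh⟩ := exists_quad γ (fun v => by rw [hγ, hφ, z2_add_self])
  let α₀ : CE β →* CE β := MonoidHom.mk' (fun x => ⟨φ x.v, x.a + h x.v⟩) (by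
    intro x y
    ext
    · simp
    · simp only [CE.mul_a, CE.mul_v, hh, hγ]
      linear_combination z2_add_self (β x.v y.v))
  have hinj : Function.Injective α₀ := by
    intro x y hxy
    have h1 : φ x.v = φ y.v := congrArg CE.v hxy
    have h2 : x.v = y.v := φ.injective h1
    have h3 : x.a + h x.v = y.a + h y.v := congrArg CE.a hxy
    rw [h2] at h3
    ext
    · exact h2
    · exact add_right_cancel h3
  have hsurj : Function.Surjective α₀ := by
    intro y
    refine ⟨⟨φ.symm y.v, y.a + h (φ.symm y.v)⟩, ?_⟩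
    ext
    · show φ (φ.symm y.v) = y.v
      simp
    · show y.a + h (φ.symm y.v) + h (φ.symm y.v) = y.a
      rw [add_assoc, z2_add_self, add_zero]
  exact ⟨MulEquiv.ofBijective α₀ ⟨hinj, hsurj⟩, fun x => rfl⟩

end ce

section final

variable {V : Type} [AddCommGroup V] [Module (ZMod 2) V] [Module.Finite (ZMod 2) V]
  {β f : LinearMap.BilinForm (ZMod 2) V}
  {ι : Type} [Fintype ι] [DecidableEq ι]

/-- `Out` of the central extension is the isometry group of its squaring form. -/
theorem nonempty_out_equiv (hf : ∀ u w, f u w = β u w + β w u) (hnd : f.Nondegenerate)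
    (g : V ≃ₗ[ZMod 2] (ι → ZMod 2)) (Q : (ι → ZMod 2) → ZMod 2) (hQ : ∀ v, β v v = Q (g v)) :
    Nonempty (Cfsg.Out (CE β) ≃* Cfsg.isometryGroup (ZMod 2) Q) := by
  -- the homomorphism to matrices
  let conjEnd : Module.End (ZMod 2) V →* Module.End (ZMod 2) (ι → ZMod 2) :=
    { toFun := fun F => (g : V →ₗ[ZMod 2] (ι → ZMod 2)) ∘ₗ F ∘ₗ (g.symm : (ι → ZMod 2) →ₗ[ZMod 2] V)
      map_one' := by
        ext x
        simp
      map_mul' := fun F F' => by
        ext x
        simp }
  let Ψ₁ : MulAut (CE β) →* Matrix ι ι (ZMod 2) :=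
    (LinearMap.toMatrixAlgEquiv' (R := ZMod 2) (n := ι)).toAlgHom.toRingHom.toMonoidHom.comp
      (conjEnd.comp (L hf hnd))
  have hΨ₁ : ∀ α x, Ψ₁ α *ᵥ x = g (L hf hnd α (g.symm x)) := by
    intro α x
    show LinearMap.toMatrix' _ *ᵥ x = _
    rw [LinearMap.toMatrix'_mulVec]
    rfl
  let Ψ₂ : MulAut (CE β) →* Matrix.GeneralLinearGroup ι (ZMod 2) := Ψ₁.toHomUnits
  have hΨ₂ : ∀ α x, ((Ψ₂ α : Matrix.GeneralLinearGroup ι (ZMod 2)) : Matrix ι ι (ZMod 2)) *ᵥ x = g (L hf hnd α (g.symm x)) :=
    fun α x => hΨ₁ α x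
  have hmem : ∀ α, Ψ₂ α ∈ Cfsg.isometryGroup (ZMod 2) Q := by
    intro α u _
    show Q (((Ψ₂ α : Matrix.GeneralLinearGroup ι (ZMod 2)) : Matrix ι ι (ZMod 2)) *ᵥ u) = Q u
    rw [hΨ₂, ← hQ, form_L hf hnd, hQ, LinearEquiv.apply_symm_apply]
  let Ψ : MulAut (CE β) →* Cfsg.isometryGroup (ZMod 2) Q := Ψ₂.codRestrict _ hmem
  have hΨ : ∀ α x, ((Ψ α).1 : Matrix ι ι (ZMod 2)) *ᵥ x = g (L hf hnd α (g.symm x)) := hΨ₂
  have hsurj : Function.Surjective Ψ := by
    intro A
    have hA1 : ((A.1⁻¹ : Matrix.GeneralLinearGroup ι (ZMod 2)) : Matrix ι ι (ZMod 2)) * (A.1 : Matrix ι ι (ZMod 2)) = 1 :=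
      Units.inv_mul A.1
    have hA2 : (A.1 : Matrix ι ι (ZMod 2)) * ((A.1⁻¹ : Matrix.GeneralLinearGroup ι (ZMod 2)) : Matrix ι ι (ZMod 2)) = 1 :=
      Units.mul_inv A.1
    let φ₀ : (ι → ZMod 2) ≃ₗ[ZMod 2] (ι → ZMod 2) := Matrix.toLin'OfInv hA1 hA2
    have hφ₀ : ∀ x, φ₀ x = (A.1 : Matrix ι ι (ZMod 2)) *ᵥ x := fun x => rfl
    let φ : V ≃ₗ[ZMod 2] V := g.trans (φ₀.trans g.symm)
    have hφg : ∀ v, g (φ v) = φ₀ (g v) := fun v => by
      show g (g.symm (φ₀ (g v))) = _
      rw [LinearEquiv.apply_symm_apply]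
    have hφ : ∀ v, β (φ v) (φ v) = β v v := by
      intro v
      rw [hQ, hQ, hφg, hφ₀]
      exact A.2 _ 0
    obtain ⟨α, hα⟩ := exists_aut_aux φ hφ
    refine ⟨α, ?_⟩
    apply Subtype.ext
    apply Units.ext
    apply Matrix.ext_of_mulVec_single
    intro i
    rw [hΨ]
    have h1 : L hf hnd α (g.symm (Pi.single i 1)) = φ (g.symm (Pi.single i 1)) := hα _
    rw [h1, hφg, LinearEquiv.apply_symm_apply, hφ₀]
  have hker : Cfsg.Inn (CE β) = Ψ.ker := by
    ext α
    rw [MonoidHom.mem_ker]
    constructor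
    · rintro ⟨g₀, rfl⟩
      apply Subtype.ext
      apply Units.ext
      apply Matrix.ext_of_mulVec_single
      intro i
      rw [hΨ, L_conj hf hnd, LinearEquiv.apply_symm_apply]
      show _ = (1 : Matrix ι ι (ZMod 2)) *ᵥ _
      rw [Matrix.one_mulVec]
    · intro h
      apply mem_range_of_L_eq_one hf hnd
      ext1 v
      have h1 := hΨ α (g v)
      rw [h] at h1
      have h2 : ((1 : Cfsg.isometryGroup (ZMod 2) Q).1 : Matrix ι ι (ZMod 2)) *ᵥ (g v) = g v := by
        simp
      rw [h2, LinearEquiv.symm_apply_apply] at h1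
      exact (g.injective h1).symm
  exact ⟨(QuotientGroup.quotientMulEquivOfEq hker).trans (QuotientGroup.quotientKerEquivOfSurjective Ψ hsurj)⟩

/-- Transport of `Out`. -/
theorem nonempty_out_congr {E E' : Type*} [Group E] [Group E'] (e : E ≃* E') :
    Nonempty (Cfsg.Out E ≃* Cfsg.Out E') := by
  refine ⟨QuotientGroup.congr (Cfsg.Inn E) (Cfsg.Inn E') (MulAut.congr e) ?_⟩
  ext α
  simp only [Subgroup.mem_map, MonoidHom.mem_range]
  constructor
  · rintro ⟨_, ⟨g, rfl⟩, rfl⟩
    refine ⟨e g, ?_⟩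
    ext x
    simp [MulAut.congr, MulAut.conj_apply]
  · rintro ⟨g, rfl⟩
    refine ⟨_, ⟨e.symm g, rfl⟩, ?_⟩
    ext x
    simp [MulAut.congr, MulAut.conj_apply]

end final

end Cfsg.Agent.Lib.PGroups.ExtraOut
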