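import Cfsg.Agent.Lib.PGroups.Basic
import Cfsg.Agent.Lib.Core.CoprimeMap
import Cfsg.Agent.Lib.FGStruct.Class
import Mathlib

/-!
# Counting real conjugacy classes of 2-groups by square roots
-/

set_option autoImplicit false

namespace Cfsg.Agent.Lib.PGroups.RealClasses

open Subgroup Cfsg.Agent.Lib.PGroups.Basic Finset

variable {P : Type*} [Group P] [Finite P]

/-- **The main inequality.** -/
theorem main (hP : IsPGroup 2 P)
    (hirr : ∀ y : P, normalizer ((zpowers y : Subgroup P) : Set P) ≤ centralizer {y}) :
    Nat.card (P ⧸ frattini P) ≤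
        Nat.card {c : ConjClasses P // ∃ y : P, ConjClasses.mk y = c ∧ orderOf y = 2} + 1 ∧
      Nat.card (P ⧸ frattini P) ≤ Nat.card (closure {y : P | orderOf y = 2}) := by
  classical
  haveI hp : Fact (Nat.Prime 2) := ⟨Nat.prime_two⟩
  haveI : Fintype P := Fintype.ofFinite P
  haveI : Fintype (ConjClasses P) := Fintype.ofFinite _
  let r : P → ℕ := fun h => #{u : P | u * u = h}
  have hrsum : ∑ h, r h = Fintype.card P := by
    have := Finset.card_eq_sum_card_fiberwise (f := fun u : P => u * u) (s := univ) (t := univ)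
      (fun _ _ => Finset.mem_coe.mpr (mem_univ _))
    simpa [r] using this.symm
  have hrzero : ∀ h, h ∉ frattini P → r h = 0 := by
    intro h hh
    simp only [r, card_eq_zero, filter_eq_empty_iff, mem_univ, forall_const]
    intro u hu
    apply hh
    rw [← hu, ← sq]
    exact pow_mem_frattini hP u
  let Φf : Finset P := {h : P | h ∈ frattini P}
  have hΦcard : #Φf = Nat.card (frattini P) := by
    rw [Nat.card_eq_fintype_card, Fintype.card_subtype]
  have hsum1 : ∑ h ∈ Φf, r h = Fintype.card P := by
    rw [← hrsum]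
    apply Finset.sum_subset (subset_univ _)
    intro h _ hh
    exact hrzero h (by simpa [Φf] using hh)
  have hsum2 : ∑ h ∈ Φf, r h ^ 2 = ∑ h, r h ^ 2 := by
    apply Finset.sum_subset (subset_univ _)
    intro h _ hh
    rw [hrzero h (by simpa [Φf] using hh)]
    simp
  have hCS : (∑ h ∈ Φf, r h) ^ 2 ≤ #Φf * ∑ h ∈ Φf, r h ^ 2 := by
    have := sq_sum_le_card_mul_sum_sq (s := Φf) (f := fun h => (r h : ℚ))
    exact_mod_cast this
  rw [hsum1, hsum2] at hCS
  -- `∑ r(h)^2 = ∑_g r(g^2)`
  have h2 : ∑ h, r h ^ 2 = ∑ g, r (g * g) := by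
    rw [← Finset.sum_fiberwise (s := univ) (g := fun g : P => g * g) (f := fun g : P => r (g * g))]
    apply Finset.sum_congr rfl
    intro h _
    have : ∀ g ∈ ({g : P | g * g = h} : Finset P), r (g * g) = r h := by
      intro g hg
      rw [(mem_filter.mp hg).2]
    rw [Finset.sum_congr rfl this, Finset.sum_const, smul_eq_mul, sq]
  -- the square roots of `g^2`
  have h3 : ∀ g : P, r (g * g) = #{x : P | g * x * g⁻¹ = x⁻¹} := by
    intro g
    symm
    apply Finset.card_bij (fun x _ => g * x)
    · intro x hx
      have hx' : g * x * g⁻¹ = x⁻¹ := (mem_filter.mp hx).2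
      refine mem_filter.mpr ⟨mem_univ _, ?_⟩
      have h1 : g * x = x⁻¹ * g := by
        rw [← hx']
        group
      calc g * x * (g * x) = g * x * (x⁻¹ * g) := by rw [h1]
        _ = g * g := by group
    · intro x _ y _ h
      exact mul_left_cancel h
    · intro u hu
      have hu' : u * u = g * g := (mem_filter.mp hu).2
      refine ⟨g⁻¹ * u, mem_filter.mpr ⟨mem_univ _, ?_⟩, by group⟩
      have h4 : g * (g⁻¹ * u) * g⁻¹ * (g⁻¹ * u) = 1 := by
        have h5 : u * g⁻¹ * (g⁻¹ * u) = u * (g * g)⁻¹ * u := by group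
        have : g * (g⁻¹ * u) * g⁻¹ * (g⁻¹ * u) = u * g⁻¹ * (g⁻¹ * u) := by group
        rw [this, h5, ← hu']
        group
      exact eq_inv_of_mul_eq_one_left h4
  -- double counting
  have h4 : ∑ g : P, #{x : P | g * x * g⁻¹ = x⁻¹} = ∑ x : P, #{g : P | g * x * g⁻¹ = x⁻¹} := by
    exact Finset.sum_card_bipartiteAbove_eq_sum_card_bipartiteBelow
      (s := (univ : Finset P)) (t := (univ : Finset P)) (fun g x : P => g * x * g⁻¹ = x⁻¹)
  let I : Finset P := {x : P | x * x = 1}
  have h5 : ∑ x : P, #{g : P | g * x * g⁻¹ = x⁻¹} = ∑ x ∈ I, Nat.card (centralizer ({x} : Set P)) := by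
    rw [← Finset.sum_subset (subset_univ I)]
    · apply Finset.sum_congr rfl
      intro x hx
      have hx' : x * x = 1 := (mem_filter.mp hx).2
      have hinv : x⁻¹ = x := inv_eq_of_mul_eq_one_left hx'
      rw [Nat.card_eq_fintype_card, Fintype.card_subtype]
      congr 1
      ext g
      simp only [mem_filter, mem_univ, true_and, hinv]
      rw [mem_centralizer_singleton_iff, mul_inv_eq_iff_eq_mul]
    · intro x _ hx
      rw [card_eq_zero, filter_eq_empty_iff]
      intro g _ hg
      apply hx
      refine mem_filter.mpr ⟨mem_univ _, ?_⟩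
      have hn : g ∈ normalizer ((zpowers x : Subgroup P) : Set P) := by
        apply Cfsg.Agent.Lib.Core.CoprimeMap.mem_normalizer_of_forall_conj_mem
        rintro _ ⟨k, rfl⟩
        refine ⟨-k, ?_⟩
        show x ^ (-k) = g * x ^ k * g⁻¹
        rw [← conj_zpow, hg, inv_zpow, zpow_neg]
      have h6 := hirr x hn
      rw [mem_centralizer_singleton_iff] at h6
      have h7 : g * x * g⁻¹ = x := by
        rw [mul_inv_eq_iff_eq_mul]
        exact h6
      rw [h7] at hg
      calc x * x = x * x⁻¹ := by rw [← hg]
        _ = 1 := by group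
  -- partition by classes
  let t : Finset (ConjClasses P) := I.image ConjClasses.mk
  have hconjI : ∀ x ∈ I, ∀ z : P, IsConj x z → z ∈ I := by
    intro x hx z hz
    obtain ⟨g, rfl⟩ := isConj_iff.mp hz
    refine mem_filter.mpr ⟨mem_univ _, ?_⟩
    have hx' : x * x = 1 := (mem_filter.mp hx).2
    calc g * x * g⁻¹ * (g * x * g⁻¹) = g * (x * x) * g⁻¹ := by group
      _ = 1 := by rw [hx']; group
  have h6 : ∑ x ∈ I, Nat.card (centralizer ({x} : Set P)) = #t * Fintype.card P := by
    rw [← Finset.sum_fiberwise_of_maps_to (s := I) (t := t) (g := ConjClasses.mk)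
      (fun x hx => mem_image_of_mem _ hx)]
    have hinner : ∀ c ∈ t, ∑ x ∈ I with ConjClasses.mk x = c, Nat.card (centralizer ({x} : Set P)) =
        Fintype.card P := by
      intro c hc
      obtain ⟨x₀, hx₀, rfl⟩ := mem_image.mp hc
      set F := ({x ∈ I | ConjClasses.mk x = ConjClasses.mk x₀} : Finset P) with hF
      have hFcard : ∀ x ∈ F, #F * Nat.card (centralizer ({x} : Set P)) = Fintype.card P := by
        intro x hx
        have hxI : x ∈ I := (mem_filter.mp hx).1
        have hxm : ConjClasses.mk x = ConjClasses.mk x₀ := (mem_filter.mp hx).2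
        have h8 := Cfsg.Agent.Lib.FGStruct.Class.card_class_mul_card_centralizer x
        have h9 : Nat.card {y : P // IsConj x y} = #F := by
          rw [Nat.card_eq_fintype_card, Fintype.card_subtype]
          congr 1
          ext z
          simp only [mem_filter, mem_univ, true_and, hF]
          constructor
          · intro hz
            refine ⟨hconjI x hxI z hz, ?_⟩
            rw [← hxm]
            exact ConjClasses.mk_eq_mk_iff_isConj.mpr hz.symm
          · rintro ⟨-, hz⟩
            rw [← hxm] at hz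
            exact (ConjClasses.mk_eq_mk_iff_isConj.mp hz).symm
        rw [h9, Nat.card_eq_fintype_card (α := P)] at h8
        exact h8
      have hx₀F : x₀ ∈ F := mem_filter.mpr ⟨hx₀, rfl⟩
      have hFpos : 0 < #F := card_pos.mpr ⟨x₀, hx₀F⟩
      have hconst : ∀ x ∈ F, Nat.card (centralizer ({x} : Set P)) =
          Nat.card (centralizer ({x₀} : Set P)) := fun x hx =>
        Nat.eq_of_mul_eq_mul_left hFpos ((hFcard x hx).trans (hFcard x₀ hx₀F).symm)
      rw [Finset.sum_congr rfl hconst, Finset.sum_const, smul_eq_mul]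
      exact hFcard x₀ hx₀F
    rw [Finset.sum_congr rfl hinner, Finset.sum_const, smul_eq_mul]
  -- combine
  have hfin : Fintype.card P * Fintype.card P ≤ Nat.card (frattini P) * (#t * Fintype.card P) := by
    have h7 : Fintype.card P ^ 2 ≤ #Φf * (#t * Fintype.card P) := by
      rw [← h6, ← h5, ← h4, ← Finset.sum_congr rfl (fun g _ => h3 g), ← h2]
      exact hCS
    rw [hΦcard, sq] at h7
    exact h7
  have hPpos : 0 < Fintype.card P := Fintype.card_pos
  have hle : Fintype.card P ≤ Nat.card (frattini P) * #t := by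
    have h7 : Fintype.card P * Fintype.card P ≤ (Nat.card (frattini P) * #t) * Fintype.card P := by
      rw [mul_assoc]
      exact hfin
    exact Nat.le_of_mul_le_mul_right h7 hPpos
  have hquot : Nat.card (P ⧸ frattini P) ≤ #t := by
    have h7 := Subgroup.card_eq_card_quotient_mul_card_subgroup (frattini P)
    rw [← Nat.card_eq_fintype_card, h7, mul_comm] at hle
    exact Nat.le_of_mul_le_mul_left hle Nat.card_pos
  -- the classes
  have htT : #t ≤ Nat.card {c : ConjClasses P // ∃ y : P, ConjClasses.mk y = c ∧ orderOf y = 2} + 1 := by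
    have hsub : t ⊆ insert (ConjClasses.mk (1 : P))
        ({c | ∃ y : P, ConjClasses.mk y = c ∧ orderOf y = 2} : Finset (ConjClasses P)) := by
      intro c hc
      obtain ⟨x, hx, rfl⟩ := mem_image.mp hc
      have hx' : x * x = 1 := (mem_filter.mp hx).2
      by_cases hx1 : x = 1
      · rw [hx1]
        exact mem_insert_self _ _
      · refine mem_insert_of_mem (mem_filter.mpr ⟨mem_univ _, x, rfl, ?_⟩)
        exact orderOf_eq_prime (by rw [sq]; exact hx') hx1
    have h7 := card_le_card hsub
    have h8 := card_insert_le (ConjClasses.mk (1 : P))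
      ({c | ∃ y : P, ConjClasses.mk y = c ∧ orderOf y = 2} : Finset (ConjClasses P))
    rw [Nat.card_eq_fintype_card, Fintype.card_subtype]
    omega
  refine ⟨hquot.trans htT, ?_⟩
  refine hquot.trans (htT.trans ?_)
  -- classes of involutions inject into the subgroup they generate
  let T := {c : ConjClasses P // ∃ y : P, ConjClasses.mk y = c ∧ orderOf y = 2}
  choose ρ hρ1 hρ2 using fun c : T => c.2
  let f : Option T → closure {y : P | orderOf y = 2} := fun o =>
    match o with
    | none => 1
    | some c => ⟨ρ c, subset_closure (hρ2 c)⟩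
  have hf : Function.Injective f := by
    have hne : ∀ c : T, ρ c ≠ 1 := by
      intro c h
      have := hρ2 c
      rw [h, orderOf_one] at this
      omega
    rintro (_ | c) (_ | d) h
    · rfl
    · exact absurd (congrArg Subtype.val h).symm (hne d)
    · exact absurd (congrArg Subtype.val h) (hne c)
    · have h1 : ρ c = ρ d := congrArg Subtype.val h
      have h2 : c.1 = d.1 := by rw [← hρ1 c, ← hρ1 d, h1]
      rw [Subtype.ext h2]
  have := Nat.card_le_card_of_injective f hf
  rwa [Finite.card_option] at this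

end Cfsg.Agent.Lib.PGroups.RealClasses
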