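import Cfsg.Agent.Lib.PGroups.Basic
import Cfsg.Agent.Lib.Coprime.Action
import Cfsg.Agent.Lib.Core.CoprimeMap

/-!
# Odd order automorphisms of 2-groups fixing many subgroups
-/

set_option autoImplicit false

namespace Cfsg.Agent.Lib.PGroups.TwoAutFix

open Subgroup Cfsg.Agent.Lib.PGroups.Basic
open scoped commutatorElement

variable {X : Type*} [Group X]

theorem conj_pow_eq {a x w : X} (h1 : a * x * a⁻¹ = x * w) (h2 : a * w * a⁻¹ = w) (i : ℕ) :
    a ^ i * x * (a ^ i)⁻¹ = x * w ^ i := by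
  induction i with
  | zero => simp
  | succ i ih =>
    have h3 : a * w ^ i * a⁻¹ = w ^ i := by
      rw [← conj_pow, h2]
    calc a ^ (i + 1) * x * (a ^ (i + 1))⁻¹ = a * (a ^ i * x * (a ^ i)⁻¹) * a⁻¹ := by
          rw [pow_succ']
          group
      _ = a * (x * w ^ i) * a⁻¹ := by rw [ih]
      _ = (a * x * a⁻¹) * (a * w ^ i * a⁻¹) := by group
      _ = x * w ^ (i + 1) := by
          rw [h1, h3, mul_assoc, pow_succ']

theorem eq_one_of_conj_eq_mul {a x w : X} (hodd : Odd (orderOf a)) {e : ℕ} (he : w ^ (2 ^ e) = 1)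
    (h1 : a * x * a⁻¹ = x * w) (h2 : a * w * a⁻¹ = w) : w = 1 := by
  have h3 := conj_pow_eq h1 h2 (orderOf a)
  rw [pow_orderOf_eq_one] at h3
  have h4 : w ^ orderOf a = 1 := by
    simpa using h3
  have h5 : orderOf w ∣ orderOf a := orderOf_dvd_of_pow_eq_one h4
  have h6 : orderOf w ∣ 2 ^ e := orderOf_dvd_of_pow_eq_one he
  have h7 : Nat.Coprime (orderOf a) (2 ^ e) := by
    apply Nat.Coprime.pow_right
    exact (Nat.coprime_two_right).mpr hodd
  have h8 : orderOf w = 1 := Nat.eq_one_of_dvd_coprimes h7 h5 h6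
  exact orderOf_eq_one_iff.mp h8

/-- Squares and commutators. -/
def gens (H : Subgroup X) : Set X :=
  {y | (∃ x ∈ H, y = x * x) ∨ (∃ x ∈ H, ∃ z ∈ H, y = x * z * x⁻¹ * z⁻¹)}

variable [Finite X]

theorem closure_gens_lt {H : Subgroup X} (hH : IsPGroup 2 H) (hne : H ≠ ⊥) : closure (gens H) < H := by
  haveI hp : Fact (Nat.Prime 2) := ⟨Nat.prime_two⟩
  have hle : closure (gens H) ≤ (frattini H).map H.subtype := by
    rw [closure_le]
    rintro y (⟨x, hx, rfl⟩ | ⟨x, hx, z, hz, rfl⟩)
    · refine ⟨⟨x, hx⟩ ^ 2, pow_mem_frattini hH _, ?_⟩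
      simp [sq]
    · refine ⟨⁅(⟨x, hx⟩ : H), (⟨z, hz⟩ : H)⁆, commutator_le_frattini hH
        (Subgroup.commutator_mem_commutator (mem_top _) (mem_top _)), ?_⟩
      simp [commutatorElement_def]
  refine lt_of_le_of_lt hle ?_
  refine lt_of_le_of_ne ?_ ?_
  · rintro _ ⟨x, -, rfl⟩
    exact x.2
  · intro h
    haveI : Nontrivial H := (Subgroup.nontrivial_iff_ne_bot H).mpr hne
    obtain ⟨K, hK, -⟩ := (eq_top_or_exists_le_coatom (⊥ : Subgroup H)).resolve_left bot_ne_top
    have hF : frattini H = ⊤ := by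
      rw [eq_top_iff]
      intro x _
      have : (x : X) ∈ (frattini H).map H.subtype := by
        rw [h]
        exact x.2
      obtain ⟨y, hy, hyx⟩ := this
      have : y = x := Subtype.ext hyx
      exact this ▸ hy
    apply hK.1
    rw [eq_top_iff, ← hF]
    exact frattini_le_coatom hK

/-- An odd order element fixing all elements of order at most 4 of an invariant 2-subgroup fixes
all the subgroup. -/
theorem fix_all {a : X} (hodd : Odd (orderOf a)) {P : Subgroup X} (hP : IsPGroup 2 P)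
    (hfix : ∀ x ∈ P, x ^ 4 = 1 → a * x * a⁻¹ = x) :
    ∀ H : Subgroup X, H ≤ P → (∀ x ∈ H, a * x * a⁻¹ ∈ H) → ∀ x ∈ H, a * x * a⁻¹ = x := by
  intro H
  induction' hn : Nat.card H using Nat.strong_induction_on with n ih generalizing H
  intro hHP hinv x hx
  by_cases hbot : H = ⊥
  · subst hbot
    rw [mem_bot] at hx
    simp [hx]
  set F := closure (gens H) with hF
  have hFH : F < H := closure_gens_lt (hP.to_le hHP) hbot
  have hgens : ∀ y ∈ gens H, a * y * a⁻¹ ∈ gens H := by
    rintro y (⟨u, hu, rfl⟩ | ⟨u, hu, z, hz, rfl⟩)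
    · refine Or.inl ⟨a * u * a⁻¹, hinv u hu, ?_⟩
      group
    · refine Or.inr ⟨a * u * a⁻¹, hinv u hu, a * z * a⁻¹, hinv z hz, ?_⟩
      group
  have hFinv : ∀ y ∈ F, a * y * a⁻¹ ∈ F := by
    intro y hy
    induction hy using closure_induction with
    | mem u hu => exact subset_closure (hgens u hu)
    | one => simp
    | mul u v _ _ ihu ihv =>
      have : a * (u * v) * a⁻¹ = (a * u * a⁻¹) * (a * v * a⁻¹) := by group
      rw [this]
      exact mul_mem ihu ihv
    | inv u _ ihu =>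
      have : a * u⁻¹ * a⁻¹ = (a * u * a⁻¹)⁻¹ := by group
      rw [this]
      exact inv_mem ihu
  have hcard : ∀ K : Subgroup X, K < H → Nat.card K < n := fun K hK => by
    rw [← hn]
    exact card_lt_of_lt hK
  have hFfix : ∀ y ∈ F, a * y * a⁻¹ = y :=
    ih _ (hcard F hFH) F rfl (hFH.le.trans hHP) hFinv
  set y := a * x * a⁻¹ with hy
  have hyH : y ∈ H := hinv x hx
  set w := x⁻¹ * y with hw
  have hwH : w ∈ H := mul_mem (inv_mem hx) hyH
  have hweq : a * x * a⁻¹ = x * w := by
    rw [hw, hy]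
    group
  suffices hwfix : a * w * a⁻¹ = w by
    have hw2 : ∃ e : ℕ, w ^ (2 ^ e) = 1 := by
      obtain ⟨e, he⟩ := hP ⟨w, hHP hwH⟩
      exact ⟨e, congrArg Subtype.val he⟩
    obtain ⟨e, he⟩ := hw2
    have h1 := eq_one_of_conj_eq_mul hodd he hweq hwfix
    show a * x * a⁻¹ = x
    rw [hweq, h1, mul_one]
  by_cases hcen : ∀ f ∈ F, ∀ z ∈ H, f * z = z * f
  · have hxx : x * x ∈ F := subset_closure (Or.inl ⟨x, hx, rfl⟩)
    have hyy : y * y = x * x := by
      have := hFfix _ hxx
      rw [← this, hy]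
      group
    set c := y * x⁻¹ * y⁻¹ * x with hc
    have hcF : c ∈ F := subset_closure (Or.inr ⟨y, hyH, x⁻¹, inv_mem hx, by rw [hc]; group⟩)
    have hrel : y * x⁻¹ = c * x⁻¹ * y := by
      rw [hc]
      group
    have hww : w * w = c := by
      have h1 : w * w = x⁻¹ * (y * x⁻¹) * y := by
        rw [hw]
        group
      rw [h1, hrel]
      have h2 : x⁻¹ * (c * x⁻¹ * y) * y = (x⁻¹ * c) * (x⁻¹ * (y * y)) := by group
      rw [h2, hyy, ← hcen c hcF x⁻¹ (inv_mem hx)]
      group
    have hxxinv : (x * x)⁻¹ ∈ F := inv_mem hxx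
    have hcc : c * c = 1 := by
      have h1 : y * (x * x)⁻¹ * y⁻¹ = (x * x)⁻¹ := (hcen _ hxxinv y hyH).symm ▸ by group
      have h2 : y * (x * x)⁻¹ * y⁻¹ = (y * x⁻¹ * y⁻¹) * (y * x⁻¹ * y⁻¹) := by group
      have h3 : y * x⁻¹ * y⁻¹ = c * x⁻¹ := by
        rw [hc]
        group
      rw [h2, h3] at h1
      have h4 : (c * x⁻¹) * (c * x⁻¹) = (c * c) * (x * x)⁻¹ := by
        have h5 : x⁻¹ * c = c * x⁻¹ := (hcen c hcF x⁻¹ (inv_mem hx)).symm
        calc (c * x⁻¹) * (c * x⁻¹) = c * (x⁻¹ * c) * x⁻¹ := by group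
          _ = c * (c * x⁻¹) * x⁻¹ := by rw [h5]
          _ = _ := by group
      rw [h4] at h1
      exact mul_eq_right.mp h1
    apply hfix w (hHP hwH)
    have : w ^ 4 = (w * w) * (w * w) := by
      rw [show (4 : ℕ) = 2 + 2 from rfl, pow_add, sq]
    rw [this, hww, hcc]
  · push Not at hcen
    obtain ⟨f, hf, z, hz, hfz⟩ := hcen
    have hfa : a * f * a⁻¹ = f := hFfix f hf
    set H₁ := H ⊓ centralizer ({f} : Set X) with hH₁
    have hmemH₁ : ∀ u : X, u ∈ H₁ ↔ u ∈ H ∧ u * f = f * u := fun u => by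
      rw [hH₁, mem_inf, mem_centralizer_singleton_iff]
    have hlt : H₁ < H := by
      refine lt_of_le_of_ne inf_le_left ?_
      intro h
      have : z ∈ H₁ := h ▸ hz
      exact hfz ((hmemH₁ z).mp this).2.symm
    have hinv₁ : ∀ u ∈ H₁, a * u * a⁻¹ ∈ H₁ := by
      intro u hu
      obtain ⟨hu1, hu2⟩ := (hmemH₁ u).mp hu
      refine (hmemH₁ _).mpr ⟨hinv u hu1, ?_⟩
      calc a * u * a⁻¹ * f = a * u * a⁻¹ * (a * f * a⁻¹) := by rw [hfa]
        _ = a * (u * f) * a⁻¹ := by group
        _ = a * (f * u) * a⁻¹ := by rw [hu2]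
        _ = (a * f * a⁻¹) * (a * u * a⁻¹) := by group
        _ = f * (a * u * a⁻¹) := by rw [hfa]
    have hwH₁ : w ∈ H₁ := by
      refine (hmemH₁ w).mpr ⟨hwH, ?_⟩
      have hfF : f ∈ H := hFH.le hf
      have hcomF : f * x * f⁻¹ * x⁻¹ ∈ F := subset_closure (Or.inr ⟨f, hfF, x, hx, rfl⟩)
      have h1 := hFfix _ hcomF
      have h2 : a * (f * x * f⁻¹ * x⁻¹) * a⁻¹ = (a * f * a⁻¹) * y * (a * f * a⁻¹)⁻¹ * y⁻¹ := by
        rw [hy]
        group
      rw [h2, hfa] at h1
      -- `f y f⁻¹ y⁻¹ = f x f⁻¹ x⁻¹`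
      have h3 : y * f⁻¹ * y⁻¹ = x * f⁻¹ * x⁻¹ := by
        have h4 : f * (y * f⁻¹ * y⁻¹) = f * (x * f⁻¹ * x⁻¹) := by
          calc f * (y * f⁻¹ * y⁻¹) = f * y * f⁻¹ * y⁻¹ := by group
            _ = f * x * f⁻¹ * x⁻¹ := h1
            _ = _ := by group
        exact mul_left_cancel h4
      have h5 : y * f * y⁻¹ = x * f * x⁻¹ := by
        have := congrArg (·⁻¹) h3
        simpa [mul_assoc] using this
      calc w * f = x⁻¹ * (y * f * y⁻¹) * y := by rw [hw]; group
        _ = x⁻¹ * (x * f * x⁻¹) * y := by rw [h5]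
        _ = f * w := by rw [hw]; group
    exact ih _ (hcard H₁ hlt) H₁ rfl (hlt.le.trans hHP) hinv₁ w hwH₁

/-- If all maximal subgroups of an invariant 2-subgroup `V` are invariant under an element of odd
order, then this element centralizes `V`. -/
theorem fix_of_max_inv {a : X} (hodd : Odd (orderOf a)) {V : Subgroup X} (hV : IsPGroup 2 V)
    (hinv : ∀ x ∈ V, a * x * a⁻¹ ∈ V)
    (hM : ∀ M : Subgroup X, M ≤ V → Nat.card V = 2 * Nat.card M → ∀ x ∈ M, a * x * a⁻¹ ∈ M) :
    ∀ x ∈ V, a * x * a⁻¹ = x := by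
  classical
  haveI hp : Fact (Nat.Prime 2) := ⟨Nat.prime_two⟩
  by_contra hcon
  push Not at hcon
  obtain ⟨x₀, hx₀, hx₀a⟩ := hcon
  set C := (centralizer ({a} : Set X)).subgroupOf V with hC
  have hCne : C ≠ ⊤ := by
    intro h
    have : (⟨x₀, hx₀⟩ : V) ∈ C := h ▸ mem_top _
    rw [hC, mem_subgroupOf, mem_centralizer_singleton_iff] at this
    have h1 : x₀ * a = a * x₀ := this
    apply hx₀a
    rw [← h1]
    group
  obtain ⟨K, hK, hCK⟩ := (eq_top_or_exists_le_coatom C).resolve_left hCne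
  have hKn : K.Normal := normal_of_isCoatom hV hK
  have hKi : K.index = 2 := index_eq_of_isCoatom hV hK
  set M := K.map V.subtype with hMdef
  have hMV : M ≤ V := by
    rintro _ ⟨u, -, rfl⟩
    exact u.2
  have hMc : Nat.card M = Nat.card K := Subgroup.card_map_of_injective V.subtype_injective
  have hVc : Nat.card V = 2 * Nat.card M := by
    rw [hMc, ← K.card_mul_index, hKi, mul_comm]
  have hMinv := hM M hMV hVc
  have hmemM : ∀ u : V, (u : X) ∈ M ↔ u ∈ K := by
    intro u
    constructor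
    · rintro ⟨v, hv, hvu⟩
      have : v = u := Subtype.ext hvu
      exact this ▸ hv
    · intro hu
      exact ⟨u, hu, rfl⟩
  obtain ⟨k, hk⟩ : ∃ k : V, k ∉ K := by
    by_contra hall
    push Not at hall
    exact hK.1 (eq_top_iff.mpr fun u _ => hall u)
  have hA : ∀ {M' : Subgroup X}, (∀ x ∈ M', a * x * a⁻¹ ∈ M') →
      zpowers a ≤ normalizer (M' : Set X) := fun h => by
    rw [zpowers_le]
    exact Cfsg.Agent.Lib.Core.CoprimeMap.mem_normalizer_of_forall_conj_mem h
  have hAV := hA hinv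
  have hAM := hA hMinv
  have hcop : (Nat.card (zpowers a)).Coprime (Nat.card V) := by
    rw [Nat.card_zpowers]
    obtain ⟨n, hn⟩ := hV.exists_card_eq
    rw [hn]
    apply Nat.Coprime.pow_right
    exact (Nat.coprime_two_right).mpr hodd
  have hsolv : Group.IsSolvable (zpowers a) ∨ Group.IsSolvable V :=
    Or.inr (by have := hV.isNilpotent; infer_instance)
  have hVM : V ≤ normalizer (M : Set X) := by
    intro v hv
    apply Cfsg.Agent.Lib.Core.CoprimeMap.mem_normalizer_of_forall_conj_mem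
    rintro _ ⟨u, hu, rfl⟩
    have := hKn.conj_mem u hu ⟨v, hv⟩
    exact ⟨_, this, rfl⟩
  obtain ⟨c, ⟨hcV, hcA⟩, hkc⟩ := Cfsg.Agent.Lib.Coprime.Action.exists_fixed_of_fixed_mod M hAV hcop hsolv hMV hVM hAM k.2
    (fun b hb => by
      have hbV : b * k * b⁻¹ ∈ V := Subgroup.le_normalizer_iff.mp hAV b hb k k.2
      have hnot : (⟨b * k * b⁻¹, hbV⟩ : V) ∉ K := by
        rw [← hmemM]
        intro h
        apply hk
        rw [← hmemM]
        have h2 : b⁻¹ * (b * k * b⁻¹) * b ∈ M := by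
          have := Subgroup.le_normalizer_iff.mp hAM b⁻¹ (inv_mem hb) _ h
          simpa using this
        have e : b⁻¹ * (b * k * b⁻¹) * b = k := by group
        rwa [e] at h2
      have h1 : (⟨b * k * b⁻¹, hbV⟩ : V) * k⁻¹ ∈ K := by
        rw [Subgroup.mul_mem_iff_of_index_two hKi]
        constructor
        · intro h; exact absurd h hnot
        · intro h; exact absurd (by simpa using h) hk
      exact (hmemM _).mpr h1)
  have hcC : (⟨c, hcV⟩ : V) ∈ C := by
    rw [hC, mem_subgroupOf, mem_centralizer_singleton_iff]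
    have := mem_centralizer_iff.mp hcA a (mem_zpowers a)
    exact this.symm
  have hcM : c ∈ M := (hmemM ⟨c, hcV⟩).mpr (hCK hcC)
  apply hk
  rw [← hmemM]
  have h2 := mul_mem hcM (inv_mem hkc)
  simpa using h2

/-- An element of odd order normalizing a cyclic 2-subgroup centralizes it. -/
theorem fix_of_cyclic {a : X} (hodd : Odd (orderOf a)) {U : Subgroup X} (hU : IsPGroup 2 U)
    (hc : IsCyclic U) (hinv : ∀ x ∈ U, a * x * a⁻¹ ∈ U) : ∀ x ∈ U, a * x * a⁻¹ = x := by
  classical
  have hn : a ∈ normalizer (U : Set X) :=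
    Cfsg.Agent.Lib.Core.CoprimeMap.mem_normalizer_of_forall_conj_mem hinv
  set σ := U.normalizerMonoidHom ⟨a, hn⟩ with hσ
  have h1 : σ ^ orderOf a = 1 := by
    rw [hσ, ← map_pow]
    have : (⟨a, hn⟩ : normalizer (U : Set X)) ^ orderOf a = 1 := Subtype.ext (pow_orderOf_eq_one a)
    rw [this, map_one]
  obtain ⟨n, hn'⟩ := hU.exists_card_eq
  have h2 : orderOf σ ∣ Nat.card (MulAut U) := orderOf_dvd_natCard σ
  rw [IsCyclic.card_mulAut, hn'] at h2
  have h3 : orderOf σ ∣ orderOf a := orderOf_dvd_of_pow_eq_one h1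
  have h4 : Nat.Coprime (orderOf a) (Nat.totient (2 ^ n)) := by
    rcases n with _ | n
    · simp
    · rw [Nat.totient_prime_pow Nat.prime_two (by omega)]
      simp only [Nat.add_sub_cancel]
      have : (2 - 1 : ℕ) = 1 := rfl
      rw [this, mul_one]
      apply Nat.Coprime.pow_right
      exact (Nat.coprime_two_right).mpr hodd
  have h5 : orderOf σ = 1 := Nat.eq_one_of_dvd_coprimes h4 h3 h2
  have h6 : σ = 1 := orderOf_eq_one_iff.mp h5
  intro x hx
  have h7 : σ ⟨x, hx⟩ = ⟨x, hx⟩ := by rw [h6]; rfl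
  have h8 : ((σ ⟨x, hx⟩ : U) : X) = a * x * a⁻¹ := rfl
  rw [← h8, h7]

/-- **Theorem.** -/
theorem main (P A D : Subgroup X) (hP : IsPGroup 2 P) (hA : Odd (Nat.card A))
    (hAP : A ≤ normalizer (P : Set X)) (hDP : D ≤ P) (hD1 : 1 < Nat.card D)
    (hD2 : Nat.card D < Nat.card P)
    (hinv : ∀ E : Subgroup X, E ≤ P → (Nat.card E = Nat.card D ∨ (Nat.card D = 2 ∧ Nat.card E = 4)) →
      A ≤ normalizer (E : Set X)) :
    A ≤ centralizer (P : Set X) := by
  classical
  haveI hp : Fact (Nat.Prime 2) := ⟨Nat.prime_two⟩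
  intro a ha
  have hodd : Odd (orderOf a) :=
    Odd.of_dvd_nat hA (Subgroup.orderOf_dvd_natCard A ha)
  have hinvE : ∀ E : Subgroup X, E ≤ P →
      (Nat.card E = Nat.card D ∨ (Nat.card D = 2 ∧ Nat.card E = 4)) → ∀ x ∈ E, a * x * a⁻¹ ∈ E :=
    fun E hE h x hx => Subgroup.le_normalizer_iff.mp (hinv E hE h) a ha x hx
  have hPinv : ∀ x ∈ P, a * x * a⁻¹ ∈ P := fun x hx => Subgroup.le_normalizer_iff.mp hAP a ha x hx
  obtain ⟨k, hk⟩ := (hP.to_le hDP).exists_card_eq
  obtain ⟨m, hm⟩ := hP.exists_card_eq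
  have hk1 : 1 ≤ k := by
    by_contra hlt
    have : k = 0 := by omega
    subst this
    rw [hk] at hD1
    simp at hD1
  have hkm : k < m := by
    rw [hk, hm] at hD2
    exact (Nat.pow_lt_pow_iff_right (by norm_num)).mp hD2
  have h4 : ∀ x ∈ P, x ^ 4 = 1 → a * x * a⁻¹ = x := by
    intro x hx hx4
    have hzx : zpowers x ≤ P := by rwa [zpowers_le]
    have hzp : IsPGroup 2 (zpowers x) := hP.to_le hzx
    have hxz : x ∈ zpowers x := mem_zpowers x
    have hord : orderOf x ∣ 2 ^ 2 := orderOf_dvd_of_pow_eq_one (by simpa using hx4)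
    obtain ⟨j, hj2, hj⟩ := (Nat.dvd_prime_pow Nat.prime_two).mp hord
    have hcz : Nat.card (zpowers x) = 2 ^ j := by rw [Nat.card_zpowers, hj]
    by_cases hk2 : k = 1
    · subst hk2
      rw [pow_one] at hk
      have hj' : j = 0 ∨ j = 1 ∨ j = 2 := by omega
      rcases hj' with rfl | rfl | rfl
      · have : x = 1 := orderOf_eq_one_iff.mp (by simpa using hj)
        simp [this]
      · refine fix_of_cyclic hodd hzp inferInstance (hinvE _ hzx (Or.inl ?_)) x hxz
        rw [hcz, hk, pow_one]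
      · refine fix_of_cyclic hodd hzp inferInstance (hinvE _ hzx (Or.inr ⟨hk, ?_⟩)) x hxz
        rw [hcz]
        norm_num
    · have hk2' : 2 ≤ k := by omega
      -- `U` and `V`
      let x' : P := ⟨x, hx⟩
      have hcz' : Nat.card (zpowers x') = 2 ^ j := by
        rw [Nat.card_zpowers, ← hj]
        exact Subgroup.orderOf_mk x hx
      obtain ⟨U', hU'c, hU'le⟩ := Sylow.exists_subgroup_card_pow_prime_le (G := P) 2 (n := j) (m := k)
        (by rw [hm]; exact pow_dvd_pow _ hkm.le) (zpowers x') hcz' (by omega)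
      obtain ⟨V', hV'c, hV'le⟩ := Sylow.exists_subgroup_card_pow_succ (G := P) (p := 2) (n := k)
        (by rw [hm]; exact pow_dvd_pow _ hkm) hU'c
      set U := U'.map P.subtype with hUdef
      set V := V'.map P.subtype with hVdef
      have hUc : Nat.card U = 2 ^ k := by
        rw [hUdef, Subgroup.card_map_of_injective P.subtype_injective, hU'c]
      have hVc : Nat.card V = 2 ^ (k + 1) := by
        rw [hVdef, Subgroup.card_map_of_injective P.subtype_injective, hV'c]
      have hUP : U ≤ P := by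
        rintro _ ⟨u, -, rfl⟩
        exact u.2
      have hVP : V ≤ P := by
        rintro _ ⟨u, -, rfl⟩
        exact u.2
      have hUV : U ≤ V := Subgroup.map_mono hV'le
      have hxU : x ∈ U := ⟨x', hU'le (mem_zpowers x'), rfl⟩
      have hUinv := hinvE U hUP (Or.inl (by rw [hUc, hk]))
      by_cases hVcyc : IsCyclic V
      · have hUcyc : IsCyclic U := isCyclic_of_injective (Subgroup.inclusion hUV)
          (Subgroup.inclusion_injective hUV)
        exact fix_of_cyclic hodd (hP.to_le hUP) hUcyc hUinv x hxU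
      · -- `V` is not cyclic
        have hVp : IsPGroup 2 V := hP.to_le hVP
        have hcoatom : ∀ K : Subgroup V, IsCoatom K → ∀ x ∈ K.map V.subtype,
            a * x * a⁻¹ ∈ K.map V.subtype := by
          intro K hK
          apply hinvE _ ((map_subtype_le K).trans hVP) (Or.inl ?_)
          rw [Subgroup.card_map_of_injective V.subtype_injective, hk]
          have h1 := K.card_mul_index
          rw [index_eq_of_isCoatom hVp hK, hVc, pow_succ] at h1
          exact Nat.eq_of_mul_eq_mul_right (by norm_num) h1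
        haveI : Nontrivial V := by
          apply Finite.one_lt_card_iff_nontrivial.mp
          rw [hVc]
          exact Nat.one_lt_two_pow (by omega)
        obtain ⟨K₁, hK₁, -⟩ := (eq_top_or_exists_le_coatom (⊥ : Subgroup V)).resolve_left bot_ne_top
        obtain ⟨y, hy⟩ : ∃ y : V, y ∉ K₁ := by
          by_contra hall
          push Not at hall
          exact hK₁.1 (eq_top_iff.mpr fun u _ => hall u)
        have hzy : zpowers y ≠ ⊤ := by
          intro h
          exact hVcyc ⟨y, fun u => by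
            have : u ∈ zpowers y := h ▸ mem_top u
            exact this⟩
        obtain ⟨K₂, hK₂, hyK₂⟩ := (eq_top_or_exists_le_coatom (zpowers y)).resolve_left hzy
        have hne : K₁ ≠ K₂ := by
          rintro rfl
          exact hy (hyK₂ (mem_zpowers y))
        have hsup : K₁ ⊔ K₂ = ⊤ := by
          apply hK₁.2
          refine lt_of_le_of_ne le_sup_left ?_
          intro h
          exact hy (h ▸ (mem_sup_right (hyK₂ (mem_zpowers y))))
        have hVinv : ∀ x ∈ V, a * x * a⁻¹ ∈ V := by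
          have hle : K₁.map V.subtype ⊔ K₂.map V.subtype ≤ V.comap (MulAut.conj a).toMonoidHom := by
            refine sup_le ?_ ?_
            · intro x hx
              exact (map_subtype_le K₁) (hcoatom K₁ hK₁ x hx)
            · intro x hx
              exact (map_subtype_le K₂) (hcoatom K₂ hK₂ x hx)
          have heq : K₁.map V.subtype ⊔ K₂.map V.subtype = V := by
            rw [← Subgroup.map_sup, hsup, ← MonoidHom.range_eq_map, Subgroup.range_subtype]
          rw [heq] at hle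
          exact fun x hx => hle hx
        refine fix_of_max_inv hodd hVp hVinv (fun M hMV hM => ?_) x (hUV hxU)
        apply hinvE M (hMV.trans hVP) (Or.inl ?_)
        rw [hk]
        rw [hVc, pow_succ, mul_comm] at hM
        exact (Nat.eq_of_mul_eq_mul_left (by norm_num) hM).symm
  have hfinal := fix_all hodd hP h4 P le_rfl hPinv
  rw [mem_centralizer_iff]
  intro x hx
  have := hfinal x hx
  rw [mul_inv_eq_iff_eq_mul] at this
  exact this.symm

end Cfsg.Agent.Lib.PGroups.TwoAutFix
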